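import Mathlib
import Cfsg.Agent.H200.DF.Arith

/-!
# `D₄(q)` and `PSL₂(W)`: the arithmetic (helper360)

`B3 q = (q² + q + 1)/(3, ·)`; `B3 (q - 1)` is the part of `q² - q + 1`.
-/

set_option autoImplicit false

namespace Cfsg.Agent.H360.Df.Eight

open Cfsg.Agent.H200.DF

/-- the part of the class `3` -/
def B3 (k : ℕ) : ℕ := (k ^ 2 + k + 1) / Nat.gcd (k ^ 2 + k + 1) 3

theorem B3_mul (k : ℕ) : B3 k * Nat.gcd (k ^ 2 + k + 1) 3 = k ^ 2 + k + 1 :=
  Nat.div_mul_cancel (Nat.gcd_dvd_left _ _)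

theorem B3_dvd (k : ℕ) : B3 k ∣ k ^ 2 + k + 1 := Dvd.intro _ (B3_mul k)

theorem B3_ge (k : ℕ) : k ^ 2 + k + 1 ≤ 3 * B3 k := by
  calc k ^ 2 + k + 1 = B3 k * Nat.gcd (k ^ 2 + k + 1) 3 := (B3_mul k).symm
    _ ≤ B3 k * 3 := Nat.mul_le_mul_left _ (Nat.gcd_le_right _ (by norm_num))
    _ = _ := mul_comm _ _

theorem B3_pos (k : ℕ) : 0 < B3 k := by
  have := B3_ge k
  omega

theorem not_nine (k : ℕ) : ¬ 9 ∣ k ^ 2 + k + 1 := by
  intro h
  have h1 : (k ^ 2 + k + 1) % 9 = 0 := Nat.mod_eq_zero_of_dvd h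
  have h2 : k % 9 < 9 := Nat.mod_lt _ (by norm_num)
  rw [Nat.add_mod, Nat.add_mod (k ^ 2), Nat.pow_mod] at h1
  interval_cases (k % 9) <;> simp at h1

theorem B3_not_three (k : ℕ) : ¬ 3 ∣ B3 k := by
  intro h
  have h1 : 3 ∣ k ^ 2 + k + 1 := h.trans (B3_dvd k)
  have h2 : Nat.gcd (k ^ 2 + k + 1) 3 = 3 := Nat.gcd_eq_right h1
  have h3 := B3_mul k
  rw [h2] at h3
  apply not_nine k
  rw [← h3]
  exact Nat.mul_dvd_mul h (dvd_refl 3)

theorem B3_odd (k : ℕ) : Odd (B3 k) := by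
  have h : Odd (k ^ 2 + k + 1) := by
    rw [show k ^ 2 + k = k * (k + 1) by ring]
    exact (Nat.even_mul_succ_self _).add_one
  rw [← B3_mul] at h
  exact (Nat.odd_mul.1 h).1

theorem pred_eq {q : ℕ} (hq : 1 ≤ q) : (q - 1) ^ 2 + (q - 1) + 1 + q = q ^ 2 + 1 := by
  obtain ⟨k, rfl⟩ := Nat.exists_eq_add_of_le' hq
  rw [Nat.add_sub_cancel]
  ring

theorem quad_mul {q : ℕ} (hq : 1 ≤ q) :
    (q ^ 2 + q + 1) * ((q - 1) ^ 2 + (q - 1) + 1) = q ^ 4 + q ^ 2 + 1 := by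
  obtain ⟨k, rfl⟩ := Nat.exists_eq_add_of_le' hq
  rw [Nat.add_sub_cancel]
  ring

theorem dvd_B36 {q k : ℕ} (h : k ^ 2 + k + 1 ∣ q ^ 4 + q ^ 2 + 1) : B3 k ∣ B36 q := by
  have h1 : B3 k ∣ B36 q * Nat.gcd (q ^ 4 + q ^ 2 + 1) 3 := by
    rw [B36_mul]
    exact (B3_dvd k).trans h
  refine Nat.Coprime.dvd_of_dvd_mul_right ?_ h1
  apply Nat.Coprime.coprime_dvd_right (Nat.gcd_dvd_right _ _)
  exact ((Nat.Prime.coprime_iff_not_dvd Nat.prime_three).2 (B3_not_three k)).symm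

theorem B3_dvd_B36 {q : ℕ} (hq : 1 ≤ q) : B3 q ∣ B36 q :=
  dvd_B36 (Dvd.intro _ (quad_mul hq))

theorem B3_pred_dvd_B36 {q : ℕ} (hq : 1 ≤ q) : B3 (q - 1) ∣ B36 q :=
  dvd_B36 (Dvd.intro_left _ (quad_mul hq))

theorem two_sq_lt : ∀ n : ℕ, 7 ≤ n → 2 * n ^ 2 < 2 ^ n := by
  intro n hn
  induction n, hn using Nat.le_induction with
  | base => norm_num
  | succ n hn ih =>
    rw [pow_succ 2 n]
    nlinarith

theorem five_pow_lt : ∀ n : ℕ, 8 ≤ n → 64 * n ^ 4 < 5 ^ n := by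
  intro n hn
  induction n, hn using Nat.le_induction with
  | base => norm_num
  | succ n hn ih =>
    have h1 : (n + 1) ^ 4 ≤ 5 * n ^ 4 := by
      have h2 : n + 1 ≤ n + n := by omega
      have h3 : 8 * (n + 1) ≤ 9 * n := by omega
      have h4 : (8 * (n + 1)) ^ 4 ≤ (9 * n) ^ 4 := Nat.pow_le_pow_left h3 4
      have h5 : (8 * (n + 1)) ^ 4 = 4096 * (n + 1) ^ 4 := by ring
      have h6 : (9 * n) ^ 4 = 6561 * n ^ 4 := by ring
      omega
    calc 64 * (n + 1) ^ 4 ≤ 64 * (5 * n ^ 4) := Nat.mul_le_mul_left _ h1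
      _ = 5 * (64 * n ^ 4) := by ring
      _ < 5 * 5 ^ n := by omega
      _ = 5 ^ (n + 1) := by ring

theorem five_mul_le : ∀ n : ℕ, 5 ≤ n → 625 * n ≤ 5 ^ n := by
  intro n hn
  induction n, hn using Nat.le_induction with
  | base => norm_num
  | succ n hn ih =>
    rw [pow_succ]
    omega

/-- the prime of the field is in none of the classes -/
theorem caseA {q g : ℕ} (hq : 7 ≤ q) (ho : Odd q) (hW : 2 ^ g ≤ 64 * (q + 1) ^ 4)
    (h : B3 q ≤ g ∨ B3 (q - 1) ≤ g ∨ A4 q ^ 2 ≤ g) : False := by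
  obtain ⟨k, hk⟩ := ho
  rcases Nat.lt_or_ge q 8 with h8 | h8
  · have e : q = 7 := by omega
    subst e
    have h1 : 19 ≤ g := by
      rcases h with h | h | h
      · exact le_trans (by decide) h
      · exact le_trans (by decide) h
      · exact le_trans (by decide) h
    have h2 : 2 ^ 19 ≤ 2 ^ g := Nat.pow_le_pow_right (by norm_num) h1
    norm_num at hW h2
    omega
  · have h1 := B3_ge q
    have h2 := B3_ge (q - 1)
    have h3 := pred_eq (q := q) (by omega)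
    have h4 : A4 q ≤ A4 q ^ 2 := Nat.le_self_pow (by norm_num) _
    have h5 := two_A4 (q := q) ⟨k, hk⟩
    have h9 : 9 ≤ q := by omega
    have h6 : 8 * q + q ≤ q ^ 2 := by nlinarith
    have h7 : 2 * (q + 1) + 4 ≤ g := by
      rcases h with h | h | h
      · omega
      · omega
      · omega
    have h10 := two_sq_lt (q + 1) (by omega)
    have h11 : 2 ^ (2 * (q + 1) + 4) ≤ 2 ^ g := Nat.pow_le_pow_right (by norm_num) h7
    have h12 : 2 ^ (2 * (q + 1) + 4) = 16 * (2 ^ (q + 1)) ^ 2 := by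
      rw [← pow_mul]
      ring
    have h13 : (2 * (q + 1) ^ 2) ^ 2 < (2 ^ (q + 1)) ^ 2 := Nat.pow_lt_pow_left h10 (by norm_num)
    have h14 : (2 * (q + 1) ^ 2) ^ 2 = 4 * (q + 1) ^ 4 := by ring
    omega

/-- the prime of the field is in one of the classes `3`, `6` -/
theorem caseB {q g W : ℕ} (hq : 7 ≤ q) (ho : Odd q) (hW : 2 ^ g ≤ W) (hW' : W ≤ q ^ 2 + q + 1)
    (h : A4 q ^ 2 ≤ g * (W + 1)) : False := by
  have h5 := two_A4 ho
  have h1 : 5 * (q ^ 2 + q + 2) ≤ 6 * (q ^ 2 + 1) := by nlinarith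
  have h2 : (q ^ 2 + 1) ^ 2 ≤ 4 * (g * (W + 1)) := by
    rw [← h5]
    calc (2 * A4 q) ^ 2 = 4 * A4 q ^ 2 := by ring
      _ ≤ _ := Nat.mul_le_mul_left _ h
  have h3 : 5 * (q ^ 2 + 1) ^ 2 ≤ 24 * g * (q ^ 2 + 1) := by
    calc 5 * (q ^ 2 + 1) ^ 2 ≤ 5 * (4 * (g * (W + 1))) := Nat.mul_le_mul_left _ h2
      _ = 4 * g * (5 * (W + 1)) := by ring
      _ ≤ 4 * g * (6 * (q ^ 2 + 1)) := Nat.mul_le_mul_left _ (by omega)
      _ = _ := by ring
  have h4 : 5 * (q ^ 2 + 1) ≤ 24 * g := by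
    have h6 : 0 < q ^ 2 + 1 := by omega
    refine Nat.le_of_mul_le_mul_right ?_ h6
    calc 5 * (q ^ 2 + 1) * (q ^ 2 + 1) = 5 * (q ^ 2 + 1) ^ 2 := by ring
      _ ≤ _ := h3
  have h6 : 49 ≤ q ^ 2 := by nlinarith
  have h7 : 11 ≤ g := by omega
  have h8 : 2 ^ g = 32 * 2 ^ (g - 5) := by
    have e : g = (g - 5) + 5 := by omega
    conv_lhs => rw [e]
    rw [pow_add]
    ring
  have h9 : g - 5 < 2 ^ (g - 5) := Nat.lt_two_pow_self
  omega

/-- the prime of the field is in the class `4` -/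
theorem caseC {q g c W : ℕ} (hq : 7 ≤ q) (ho : Odd q) (hg : 1 ≤ g) (hc : A4 q ^ 2 = c * W) (hcg : c ∣ g)
    (h15 : c = 1 ∨ 5 ≤ c) (hW : 5 ^ g ≤ W)
    (hprime : ∀ r, r.Prime → r ∣ B3 q ∨ r ∣ B3 (q - 1) → 7 ≤ r ∧ ¬ r ∣ c)
    {ε : ℤ} (hε : ε = 1 ∨ ε = -1) (h3 : (B3 q : ℤ) ∣ g * (W - ε)) (h6 : (B3 (q - 1) : ℤ) ∣ g * (W + ε)) :
    False := by
  have hA := two_A4 ho
  have e4 : 4 * (c * W) = (q ^ 2 + 1) ^ 2 := by
    rw [← hA, ← hc]; ring
  have e4z : (4 : ℤ) * (c * W) = ((q : ℤ) ^ 2 + 1) ^ 2 := by exact_mod_cast e4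
  have hc1 : 1 ≤ c := by rcases h15 with h | h <;> omega
  -- the two divisibilities
  have d3 : (B3 q : ℤ) ∣ g * (q + 1 + 4 * c * ε) := by
    have h1 : (B3 q : ℤ) ∣ (q : ℤ) ^ 2 + q + 1 := by exact_mod_cast B3_dvd q
    have h2 : (g : ℤ) * (q + 1 + 4 * c * ε) =
        ((q : ℤ) ^ 2 + q + 1) * (g * ((q : ℤ) ^ 2 - q + 2)) - (g * (W - ε)) * (4 * c) := by
      linear_combination (g : ℤ) * e4z
    rw [h2]
    exact dvd_sub (h1.mul_right _) (h3.mul_right _)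
  have d6 : (B3 (q - 1) : ℤ) ∣ g * (q - 1 + 4 * c * ε) := by
    have h1 : (B3 (q - 1) : ℤ) ∣ (q : ℤ) ^ 2 - q + 1 := by
      have h0 : (B3 (q - 1) : ℤ) ∣ (((q - 1) ^ 2 + (q - 1) + 1 : ℕ) : ℤ) := by
        exact_mod_cast B3_dvd (q - 1)
      have h00 := pred_eq (q := q) (by omega)
      have h000 : (((q - 1) ^ 2 + (q - 1) + 1 : ℕ) : ℤ) = (q : ℤ) ^ 2 - q + 1 := by
        have : (((q - 1) ^ 2 + (q - 1) + 1 + q : ℕ) : ℤ) = ((q ^ 2 + 1 : ℕ) : ℤ) := by rw [h00]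
        rw [Nat.cast_add] at this
        push_cast at this ⊢
        linarith
      rwa [h000] at h0
    have h2 : (g : ℤ) * (q - 1 + 4 * c * ε) =
        (g * (W + ε)) * (4 * c) - ((q : ℤ) ^ 2 - q + 1) * (g * ((q : ℤ) ^ 2 + q + 2)) := by
      linear_combination -(g : ℤ) * e4z
    rw [h2]
    exact dvd_sub (h6.mul_right _) (h1.mul_right _)
  have b3 := B3_ge q
  have b6 := B3_ge (q - 1)
  have bp := pred_eq (q := q) (by omega)
  have habs : (q + 1 + 4 * c * ε : ℤ).natAbs ≤ q + 1 + 4 * c := by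
    rcases hε with rfl | rfl <;> omega
  by_cases hcop : Nat.Coprime g (B3 q) ∧ Nat.Coprime g (B3 (q - 1))
  · obtain ⟨c3, c6⟩ := hcop
    have d3' : (B3 q : ℤ) ∣ q + 1 + 4 * c * ε := by
      refine IsCoprime.dvd_of_dvd_mul_left ?_ d3
      exact (Nat.isCoprime_iff_coprime.2 c3).symm
    have d6' : (B3 (q - 1) : ℤ) ∣ q - 1 + 4 * c * ε := by
      refine IsCoprime.dvd_of_dvd_mul_left ?_ d6
      exact (Nat.isCoprime_iff_coprime.2 c6).symm
    have key : B3 q ≤ q + 1 + 4 * c := by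
      by_cases ht : (q + 1 + 4 * c * ε : ℤ) = 0
      · exfalso
        have e : (q - 1 + 4 * c * ε : ℤ) = -2 := by linarith
        rw [e, dvd_neg] at d6'
        have h1 : B3 (q - 1) ∣ 2 := by exact_mod_cast d6'
        have h2 := Nat.le_of_dvd (by norm_num) h1
        nlinarith
      · have h1 := Int.natAbs_dvd_natAbs.2 d3'
        rw [Int.natAbs_natCast] at h1
        exact (Nat.le_of_dvd (Int.natAbs_pos.2 ht) h1).trans habs
    rcases h15 with rfl | h5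
    · nlinarith
    · have hcg' := Nat.le_of_dvd hg hcg
      have h1 := five_mul_le c h5
      have h2 : 5 ^ c ≤ W := (Nat.pow_le_pow_right (by norm_num) hcg').trans hW
      have h3 : (50 * c) ^ 2 ≤ (q ^ 2 + 1) ^ 2 := by
        calc (50 * c) ^ 2 = 4 * (c * (625 * c)) := by ring
          _ ≤ 4 * (c * W) := Nat.mul_le_mul_left _ (Nat.mul_le_mul_left _ (h1.trans h2))
          _ = _ := e4
      have h4 : 50 * c ≤ q ^ 2 + 1 := (Nat.pow_le_pow_iff_left (by norm_num)).1 h3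
      nlinarith
  · obtain ⟨r, hr, hrg, hrB⟩ : ∃ r, r.Prime ∧ r ∣ g ∧ (r ∣ B3 q ∨ r ∣ B3 (q - 1)) := by
      rw [not_and_or] at hcop
      rcases hcop with h | h
      · obtain ⟨r, hr, h1, h2⟩ := Nat.Prime.not_coprime_iff_dvd.1 h
        exact ⟨r, hr, h1, Or.inl h2⟩
      · obtain ⟨r, hr, h1, h2⟩ := Nat.Prime.not_coprime_iff_dvd.1 h
        exact ⟨r, hr, h1, Or.inr h2⟩
    obtain ⟨hr7, hrc⟩ := hprime r hr hrB
    have h7c : 7 * c ≤ g := by
      have h1 : r * c ∣ g := Nat.Coprime.mul_dvd_of_dvd_of_dvd ((Nat.Prime.coprime_iff_not_dvd hr).2 hrc) hrg hcg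
      exact (Nat.mul_le_mul_right _ hr7).trans (Nat.le_of_dvd hg h1)
    have key : q ^ 2 + q + 1 ≤ 3 * (g * (q + 1 + 4 * c)) ∨ q ^ 2 + 1 ≤ 6 * g + q := by
      by_cases ht : (q + 1 + 4 * c * ε : ℤ) = 0
      · right
        have e : (q - 1 + 4 * c * ε : ℤ) = -2 := by linarith
        rw [e, mul_neg, dvd_neg] at d6
        have h1 : B3 (q - 1) ∣ g * 2 := by exact_mod_cast d6
        have h2 := Nat.le_of_dvd (by omega) h1
        omega
      · left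
        have h1 := Int.natAbs_dvd_natAbs.2 d3
        rw [Int.natAbs_natCast, Int.natAbs_mul, Int.natAbs_natCast] at h1
        have h2 := Nat.le_of_dvd (Nat.mul_pos hg (Int.natAbs_pos.2 ht)) h1
        have h3 := Nat.mul_le_mul_left g habs
        omega
    have h45 : 4 * 5 ^ g ≤ (q ^ 2 + 1) ^ 2 := by
      rw [← e4]
      calc 4 * 5 ^ g ≤ 4 * W := Nat.mul_le_mul_left _ hW
        _ ≤ 4 * (c * W) := Nat.mul_le_mul_left _ (Nat.le_mul_of_pos_left _ hc1)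
    rcases Nat.lt_or_ge g 8 with hg8 | hg8
    · have hg7 : g = 7 := by omega
      have hc1' : c = 1 := by omega
      subst hg7 hc1'
      have hq24 : 24 ≤ q := by
        by_contra hcon
        have h1 : q ≤ 23 := by omega
        have h2 : q ^ 2 ≤ 23 ^ 2 := Nat.pow_le_pow_left h1 2
        have h3 : (q ^ 2 + 1) ^ 2 ≤ (23 ^ 2 + 1) ^ 2 := Nat.pow_le_pow_left (by omega) 2
        norm_num at h3 h45
        omega
      obtain ⟨k, hk⟩ := ho
      have hq25 : 25 ≤ q := by omega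
      rcases key with h | h <;> nlinarith
    · have hg5 := five_pow_lt g hg8
      have hq4 : 4 * g ≤ q := by
        by_contra hcon
        have h1 : q + 1 ≤ 4 * g := by omega
        have h2 : q ^ 2 + 1 ≤ 16 * g ^ 2 := by nlinarith
        have h3 : (q ^ 2 + 1) ^ 2 ≤ (16 * g ^ 2) ^ 2 := Nat.pow_le_pow_left h2 2
        have h4 : (16 * g ^ 2) ^ 2 = 4 * (64 * g ^ 4) := by ring
        omega
      rcases key with h | h
      · have h1 : 7 * (3 * (g * (q + 1 + 4 * c))) ≤ 3 * (g * (7 * q + 7 + 4 * g)) := by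
          calc 7 * (3 * (g * (q + 1 + 4 * c))) = 3 * (g * (7 * q + 7 + 4 * (7 * c))) := by ring
            _ ≤ _ := by gcongr
        have h2 : 4 * g * q ≤ q ^ 2 := by nlinarith
        have h3 : 4 * g * g ≤ g * q := by nlinarith
        nlinarith
      · nlinarith

end Cfsg.Agent.H360.Df.Eight
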